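import Cfsg.Agent.H715.Fpr.MathData
import Cfsg.Agent.H180.MElNum

/-!
# S4816 (helper956): no proper subgroup of `M₂₂` has order divisible by `77`
-/

set_option autoImplicit false

namespace Cfsg.Agent.H956.RIM.NoSub

open Cfsg Subgroup

/-- the order of the normaliser of a Sylow subgroup of order `p` divides that in the whole group -/
theorem card_norm_dvd {G : Type*} [Group G] [Finite G] {p n : ℕ}
    (hn : ∀ R : Subgroup G, Nat.card R = p → Nat.card (normalizer (R : Set G)) = n) (X : Subgroup G)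
    (P : Subgroup X) (hP : Nat.card P = p) : Nat.card (normalizer (P : Set X)) ∣ n := by
  have h1 : Nat.card (P.map X.subtype) = p := by
    rw [Subgroup.card_map_of_injective X.subtype_injective, hP]
  have h2 : Nat.card ((normalizer (P : Set X)).map X.subtype) = Nat.card (normalizer (P : Set X)) :=
    Subgroup.card_map_of_injective X.subtype_injective
  rw [← hn _ h1, ← h2]
  apply Subgroup.card_dvd_of_le
  rintro _ ⟨x, hx, rfl⟩
  have hx' := Subgroup.mem_normalizer_iff.1 hx
  rw [Subgroup.mem_normalizer_iff]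
  intro g
  constructor
  · rintro ⟨y, hy, rfl⟩
    exact ⟨x * y * x⁻¹, (hx' y).1 hy, rfl⟩
  · rintro ⟨y, hy, hyg⟩
    refine ⟨x⁻¹ * y * x, ?_, ?_⟩
    · apply (hx' _).2
      have : x * (x⁻¹ * y * x) * x⁻¹ = y := by group
      rw [this]
      exact hy
    · show ((x : G))⁻¹ * (y : G) * x = g
      have h2 : (y : G) = x * g * (x : G)⁻¹ := hyg
      rw [h2]
      group

/-- Sylow data of a subgroup -/
theorem syl_data {G : Type*} [Group G] [Finite G] {p n : ℕ} [hp : Fact p.Prime]
    (hn : ∀ R : Subgroup G, Nat.card R = p → Nat.card (normalizer (R : Set G)) = n)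
    (h2 : (Nat.card G).factorization p = 1) (X : Subgroup G) (hX : p ∣ Nat.card X) :
    ∃ m N : ℕ, m * N = Nat.card X ∧ N ∣ n ∧ p ∣ N ∧ m % p = 1 % p ∧
      Nat.card {x : X // orderOf x = p} = m * (p - 1) := by
  have hf : (Nat.card X).factorization p = 1 := by
    have h3 : (Nat.card X).factorization p ≤ (Nat.card G).factorization p :=
      (Nat.factorization_le_iff_dvd Nat.card_pos.ne' Nat.card_pos.ne').2 (card_subgroup_dvd_card X) p
    have h4 : 1 ≤ (Nat.card X).factorization p :=
      (hp.out.dvd_iff_one_le_factorization Nat.card_pos.ne').1 hX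
    omega
  obtain ⟨P⟩ : Nonempty (Sylow p X) := inferInstance
  have hPc : Nat.card (P : Subgroup X) = p := by
    rw [P.card_eq_multiplicity, hf, pow_one]
  have h5 := card_norm_dvd hn X (P : Subgroup X) hPc
  refine ⟨Nat.card (Sylow p X), Nat.card (normalizer ((P : Subgroup X) : Set X)), ?_, h5, ?_, ?_,
    Cfsg.Agent.H180.MEl.card_order_prime hf⟩
  · rw [Sylow.card_eq_index_normalizer P, mul_comm]
    exact Subgroup.card_mul_index _
  · have h6 : Nat.card (P : Subgroup X) ∣ Nat.card (normalizer ((P : Subgroup X) : Set X)) :=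
      Subgroup.card_dvd_of_le Subgroup.le_normalizer
    rwa [hPc] at h6
  · exact card_sylow_modEq_one p X

theorem arith {x m N m' N' : ℕ} (hx : x ∣ 443520) (hpos : 0 < x) (h1 : m * N = x) (h2 : N ∣ 21) (h3 : 7 ∣ N)
    (h4 : m % 7 = 1 % 7) (h1' : m' * N' = x) (h2' : N' ∣ 55) (h3' : 11 ∣ N') (h4' : m' % 11 = 1 % 11)
    (hs : m * (7 - 1) + m' * (11 - 1) ≤ x) : x = 443520 := by
  have hN : N = 7 ∨ N = 21 := by
    obtain ⟨k, rfl⟩ := h3
    have h5 : k ∣ 3 := Nat.dvd_of_mul_dvd_mul_left (show 0 < 7 by norm_num) h2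
    rcases (Nat.dvd_prime (by norm_num)).1 h5 with rfl | rfl
    · left; rfl
    · right; rfl
  have hN' : N' = 11 ∨ N' = 55 := by
    obtain ⟨k, rfl⟩ := h3'
    have h5 : k ∣ 5 := Nat.dvd_of_mul_dvd_mul_left (show 0 < 11 by norm_num) h2'
    rcases (Nat.dvd_prime (by norm_num)).1 h5 with rfl | rfl
    · left; rfl
    · right; rfl
  rcases hN with rfl | rfl <;> rcases hN' with rfl | rfl
  · omega
  · omega
  · omega
  · obtain ⟨j, hj⟩ : ∃ j, x = 1155 * j := by
      refine ⟨x / 1155, ?_⟩
      omega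
    have hj1 : j ∣ 384 := by
      rw [hj] at hx
      exact Nat.dvd_of_mul_dvd_mul_left (show 0 < 1155 by norm_num) hx
    have hm1 : m = 55 * j := by omega
    have hm2 : m' = 21 * j := by omega
    have hj2 : j ≤ 384 := Nat.le_of_dvd (by norm_num) hj1
    have hfin : ∀ j ≤ 384, j ∣ 384 → (55 * j) % 7 = 1 % 7 → (21 * j) % 11 = 1 % 11 → j = 384 := by decide +kernel
    have hj3 := hfin j hj2 hj1 (by rw [← hm1]; exact h4) (by rw [← hm2]; exact h4')
    rw [hj, hj3]

theorem card22 : Nat.card Spor.M22 = 443520 := Cfsg.Agent.H715.Fpr.MathData.card22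

/-- **no proper subgroup of order divisible by `77`** -/
theorem eq_top (X : Subgroup Spor.M22) (h7 : 7 ∣ Nat.card X) (h11 : 11 ∣ Nat.card X) : X = ⊤ := by
  have : Finite Spor.M22 := Nat.finite_of_card_ne_zero (by rw [card22]; norm_num)
  have i7 : Fact (Nat.Prime 7) := ⟨by norm_num⟩
  have i11 : Fact (Nat.Prime 11) := ⟨by norm_num⟩
  have f7 : (Nat.card Spor.M22).factorization 7 = 1 := by
    rw [card22, show (443520 : ℕ) = 7 ^ 1 * 63360 by norm_num, Nat.factorization_mul (by norm_num) (by norm_num),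
      Nat.Prime.factorization_pow (by norm_num), Finsupp.add_apply, Finsupp.single_eq_same,
      Nat.factorization_eq_zero_of_not_dvd (by norm_num)]
  have f11 : (Nat.card Spor.M22).factorization 11 = 1 := by
    rw [card22, show (443520 : ℕ) = 11 ^ 1 * 40320 by norm_num, Nat.factorization_mul (by norm_num) (by norm_num),
      Nat.Prime.factorization_pow (by norm_num), Finsupp.add_apply, Finsupp.single_eq_same,
      Nat.factorization_eq_zero_of_not_dvd (by norm_num)]
  obtain ⟨m, N, hmN, hN, hpN, hmod, hc⟩ := syl_data (fun R hR => (Cfsg.Agent.H715.Fpr.MathData.cn22_7 hR).2) f7 X h7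
  obtain ⟨m', N', hmN', hN', hpN', hmod', hc'⟩ :=
    syl_data (fun R hR => (Cfsg.Agent.H715.Fpr.MathData.cn22_11 hR).2) f11 X h11
  -- the elements of order 7 and 11
  have hsum : m * (7 - 1) + m' * (11 - 1) ≤ Nat.card X := by
    rw [← hc, ← hc']
    classical
    rw [← Nat.card_sum]
    refine Nat.card_le_card_of_injective
      (Sum.elim (fun x : {x : X // orderOf x = 7} => x.1) (fun x : {x : X // orderOf x = 11} => x.1)) ?_
    rintro (x | x) (y | y) hxy
    · exact congrArg Sum.inl (Subtype.ext hxy)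
    · exfalso
      have h1 : (x.1 : X) = y.1 := hxy
      have h2 := x.2
      rw [h1, y.2] at h2
      norm_num at h2
    · exfalso
      have h1 : (x.1 : X) = y.1 := hxy
      have h2 := x.2
      rw [h1, y.2] at h2
      norm_num at h2
    · exact congrArg Sum.inr (Subtype.ext hxy)
  have hdvd : Nat.card X ∣ 443520 := by
    rw [← card22]
    exact card_subgroup_dvd_card X
  have key : Nat.card X = 443520 := arith hdvd Nat.card_pos hmN hN hpN hmod hmN' hN' hpN' hmod' hsum
  apply Subgroup.eq_top_of_card_eq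
  rw [key, card22]

end Cfsg.Agent.H956.RIM.NoSub
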